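import Cfsg.Agent.H300.Co.Base

/-!
# `3'`-subgroups of `L` normalised by `T` are scalar (TEAM S5227, task 3752)
-/

set_option autoImplicit false
set_option linter.style.longLine false

namespace Cfsg.Agent.H300.Co

open Cfsg.Agent.H776.Co.Lin Subgroup

/-- the stabiliser of the line `W1` -/
def S1 : Subgroup L where
  carrier := {g | ∃ s : ZMod 3, g e0 = s • e0}
  mul_mem' := by
    rintro g h ⟨s, hs⟩ ⟨t, ht⟩
    refine ⟨t * s, ?_⟩
    show g (h e0) = _
    rw [ht, map_smul, hs, smul_smul]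
  one_mem' := ⟨1, by simp⟩
  inv_mem' := by
    rintro g ⟨s, hs⟩
    have h0 : s ≠ 0 := by
      rintro rfl
      rw [zero_smul] at hs
      have h1 : e0 = 0 := g.injective (by rw [hs, map_zero])
      have h2 := congrFun h1 0
      simp [e0] at h2
    refine ⟨s⁻¹, ?_⟩
    apply g.injective
    show (g * g⁻¹) e0 = _
    rw [mul_inv_cancel, map_smul, hs, smul_smul, inv_mul_cancel₀ h0, one_smul]
    rfl

/-- the stabiliser of the vector `e0` -/
def S0 : Subgroup L where
  carrier := {g | g e0 = e0}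
  mul_mem' := by
    rintro g h hg hh
    show g (h e0) = _
    rw [show h e0 = e0 from hh, show g e0 = e0 from hg]
  one_mem' := rfl
  inv_mem' := by
    rintro g hg
    apply g.injective
    show (g * g⁻¹) e0 = _
    rw [mul_inv_cancel, show g e0 = e0 from hg]
    rfl

theorem mem_S0 {g : L} : g ∈ S0 ↔ g e0 = e0 := Iff.rfl
theorem mem_S1 {g : L} : g ∈ S1 ↔ ∃ s : ZMod 3, g e0 = s • e0 := Iff.rfl

theorem e0_ne : e0 ≠ 0 := by
  intro h
  have h2 := congrFun h 0
  simp [e0] at h2

/-- elements commuting with a nontrivial element of `U2` preserve `W1` -/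
theorem mem_S1_of_comm {r : L} {a c : ZMod 3} (hac : a ≠ 0 ∨ c ≠ 0) (h : r * tl a 0 c = tl a 0 c * r) : r ∈ S1 := by
  obtain ⟨w, hw⟩ : ∃ w : V, 2 * (a ^ 2 * w 2 + 2 * a * c * w 4 + c ^ 2 * w 5) = 1 := by
    by_cases ha : a = 0
    · have hc : c ≠ 0 := by tauto
      refine ⟨![0, 0, 0, 0, 0, 2], ?_⟩
      subst ha
      have key : ∀ c : ZMod 3, c ≠ 0 → 2 * (c ^ 2 * 2) = 1 := by decide
      simpa using key c hc
    · refine ⟨![0, 0, 2, 0, 0, 0], ?_⟩
      have key : ∀ c : ZMod 3, c ≠ 0 → 2 * (c ^ 2 * 2) = 1 := by decide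
      simpa using key a ha
  have h1 := sq_U2 a c w
  rw [hw, one_smul] at h1
  have h2 : ∀ v, r (tf a 0 c v) = tf a 0 c (r v) := fun v => by
    have := LinearEquiv.congr_fun h v
    exact this
  rw [mem_S1]
  refine ⟨2 * (a ^ 2 * (r w) 2 + 2 * a * c * (r w) 4 + c ^ 2 * (r w) 5), ?_⟩
  rw [← sq_U2 a c (r w), ← h2, ← h2, ← map_add, ← map_add, h1]

theorem R_le_S1 (R : Subgroup L) (hT : ∀ t ∈ T, ∀ r ∈ R, t * r * t⁻¹ ∈ R) (h3 : ¬ 3 ∣ Nat.card R) : R ≤ S1 := by
  have hp : Fact (Nat.Prime 3) := ⟨Nat.prime_three⟩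
  have hA : Cfsg.IsElementaryAbelian 3 U2 := by
    refine ⟨⟨⟨?_⟩⟩, ?_⟩
    · rintro ⟨_, a, c, rfl⟩ ⟨_, a', c', rfl⟩
      apply Subtype.ext
      show tl a 0 c * tl a' 0 c' = tl a' 0 c' * tl a 0 c
      rw [tl_mul, tl_mul]
      congr 1 <;> ring
    · rintro _ ⟨a, c, rfl⟩
      exact tl_pow_three _ _ _
  have hA1 : U2 ≠ ⊥ := by
    intro h
    have := card_U2
    rw [h] at this
    simp at this
  have hAQ : U2 ≤ normalizer (R : Set L) := by
    intro t ht
    have ht' := U2_le_T ht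
    rw [mem_normalizer_iff]
    intro r
    refine ⟨fun h => hT t ht' r h, fun h => ?_⟩
    have := hT t⁻¹ (T.inv_mem ht') _ h
    simpa [mul_assoc] using this
  rw [← Cfsg.Agent.Lib.CoprimeHyperplane.iSup_centralizer_hyperplane hA hA1 h3 hAQ]
  refine iSup_le ?_
  rintro ⟨B, hB, hB3⟩ r ⟨-, hr⟩
  have hne : B ≠ ⊥ := by
    rintro rfl
    rw [Subgroup.relIndex_bot_left, card_U2] at hB3
    omega
  have hnt : Nontrivial B := (Subgroup.nontrivial_iff_ne_bot B).2 hne
  obtain ⟨⟨u, hu⟩, hu1⟩ := exists_ne (1 : B)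
  obtain ⟨a, c, rfl⟩ := hB hu
  have hac : a ≠ 0 ∨ c ≠ 0 := by
    by_contra hcon
    push Not at hcon
    apply hu1
    apply Subtype.ext
    show tl a 0 c = 1
    rw [hcon.1, hcon.2, tl_one]
  exact mem_S1_of_comm hac (mem_centralizer_iff.1 hr _ hu).symm

/-- `3'`-subgroups fixing `e0` and normalised by `T` are trivial -/
theorem eq_one_of_S0 (R : Subgroup L) (hT : ∀ t ∈ T, ∀ r ∈ R, t * r * t⁻¹ ∈ R) (h3 : ¬ 3 ∣ Nat.card R) (h0 : R ≤ S0) :
    R = ⊥ := by
  have hp : Fact (Nat.Prime 3) := ⟨Nat.prime_three⟩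
  have := Fintype.ofFinite R
  let W : Submodule (ZMod 3) V :=
    { carrier := {v | ∑ r : R, (r : L) v = 0}
      add_mem' := by
        intro u v hu hv
        show ∑ r : R, (r : L) (u + v) = 0
        simp only [map_add, Finset.sum_add_distrib]
        rw [show ∑ r : R, (r : L) u = 0 from hu, show ∑ r : R, (r : L) v = 0 from hv, add_zero]
      zero_mem' := by
        show ∑ r : R, (r : L) 0 = 0
        simp
      smul_mem' := by
        intro s v hv
        show ∑ r : R, (r : L) (s • v) = 0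
        simp only [map_smul]
        rw [← Finset.smul_sum, show ∑ r : R, (r : L) v = 0 from hv, smul_zero] }
  have hW : ∀ t ∈ T, ∀ w ∈ W, t w ∈ W := by
    intro t ht w hw
    show ∑ r : R, (r : L) (t w) = 0
    have h1 : ∀ r : R, (r : L) (t w) = t ((t⁻¹ * r * t) w) := by
      intro r
      show _ = (t * (t⁻¹ * r * t)) w
      rw [show t * (t⁻¹ * r * t) = (r : L) * t by group]
      rfl
    simp only [h1]
    rw [← map_sum]
    let e : R ≃ R :=
      { toFun := fun r => ⟨t⁻¹ * r * t, by simpa using hT t⁻¹ (T.inv_mem ht) r r.2⟩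
        invFun := fun r => ⟨t * r * t⁻¹, hT t ht r r.2⟩
        left_inv := fun r => Subtype.ext (by simp [mul_assoc])
        right_inv := fun r => Subtype.ext (by simp [mul_assoc]) }
    have h2 : ∑ r : R, (t⁻¹ * (r : L) * t) w = ∑ r : R, (r : L) w :=
      Fintype.sum_equiv e _ _ (fun r => rfl)
    rw [h2, show ∑ r : R, (r : L) w = 0 from hw, map_zero]
  have hbot : ∀ v ∈ W, v = 0 := by
    intro v hv
    by_contra hne
    have h1 : ∑ r : R, (r : L) e0 = 0 := e0_mem hW hv hne
    have h2 : ∀ r : R, (r : L) e0 = e0 := fun r => h0 r.2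
    simp only [h2] at h1
    rw [Finset.sum_const, Finset.card_univ, ← Nat.card_eq_fintype_card] at h1
    have h4 := congrFun h1 0
    simp [e0] at h4
    exact h3 (by rw [Nat.card_eq_fintype_card]; exact (ZMod.natCast_eq_zero_iff _ _).1 h4)
  rw [eq_bot_iff]
  intro s hs
  rw [mem_bot]
  refine LinearEquiv.ext fun v => ?_
  have h1 : s v - v ∈ W := by
    show ∑ r : R, (r : L) (s v - v) = 0
    simp only [map_sub, Finset.sum_sub_distrib]
    rw [sub_eq_zero]
    exact Fintype.sum_equiv (Equiv.mulRight ⟨s, hs⟩) _ _ (fun r => rfl)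
  have h2 := hbot _ h1
  rw [sub_eq_zero] at h2
  exact h2

/-- **task 3752**: `3'`-subgroups normalised by `T` are scalar. -/
theorem sig (R : Subgroup L) (hT : ∀ t ∈ T, ∀ r ∈ R, t * r * t⁻¹ ∈ R) (h3 : ¬ 3 ∣ Nat.card R) :
    ∀ r ∈ R, (∀ v, r v = v) ∨ (∀ v, r v = -v) := by
  have hR1 := R_le_S1 R hT h3
  have h0 : R ⊓ S0 = ⊥ := by
    refine eq_one_of_S0 _ ?_ ?_ inf_le_right
    · rintro t ht r ⟨hr, hr0⟩
      refine ⟨hT t ht r hr, ?_⟩
      obtain ⟨a, b, c, rfl⟩ := ht
      have ht0 : tl a b c ∈ S0 := tf_e0 a b c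
      exact S0.mul_mem (S0.mul_mem ht0 hr0) (S0.inv_mem ht0)
    · intro h
      exact h3 (h.trans (card_dvd_of_le inf_le_left))
  intro r hr
  obtain ⟨s, hs⟩ := hR1 hr
  have hinj : ∀ g ∈ R, g e0 = e0 → g = 1 := fun g hg h => by
    have : g ∈ R ⊓ S0 := ⟨hg, h⟩
    rwa [h0, mem_bot] at this
  have hs0 : s ≠ 0 := by
    rintro rfl
    rw [zero_smul] at hs
    exact e0_ne (r.injective (by rw [hs, map_zero]))
  -- `r` commutes with `T`
  have hcomm : ∀ t ∈ T, t * r = r * t := by
    intro t ht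
    have ht' := ht
    obtain ⟨a, b, c, rfl⟩ := ht'
    have h1 : r⁻¹ * (tl a b c * r * (tl a b c)⁻¹) = 1 := by
      refine hinj _ (R.mul_mem (R.inv_mem hr) (hT _ ht r hr)) ?_
      apply r.injective
      show (r * (r⁻¹ * (tl a b c * r * (tl a b c)⁻¹))) e0 = r e0
      rw [mul_inv_cancel_left, tl_inv]
      show tf a b c (r (tf (-a) (-b) (-c + a * b) e0)) = _
      rw [tf_e0, hs, ← tl_apply, map_smul, tl_apply, tf_e0]
    rw [inv_mul_eq_one] at h1
    exact (mul_inv_eq_iff_eq_mul.1 h1.symm)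
  have hcases : s = 1 ∨ s = -1 := by
    have key : ∀ s : ZMod 3, s ≠ 0 → s = 1 ∨ s = -1 := by decide
    exact key s hs0
  rcases hcases with rfl | rfl
  · left
    rw [one_smul] at hs
    have := hinj r hr hs
    intro v
    rw [this]
    rfl
  · right
    have hr2 : ∀ v, r (r v) = v := by
      have : r * r = 1 := hinj _ (R.mul_mem hr hr) (by
        show r (r e0) = e0
        rw [hs, map_smul, hs, smul_smul]
        simp)
      intro v
      exact LinearEquiv.congr_fun this v
    let W : Submodule (ZMod 3) V :=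
      { carrier := {v | r v = v}
        add_mem' := by
          intro u v hu hv
          show r (u + v) = u + v
          rw [map_add, show r u = u from hu, show r v = v from hv]
        zero_mem' := map_zero r
        smul_mem' := by
          intro c v hv
          show r (c • v) = c • v
          rw [map_smul, show r v = v from hv] }
    have hW : ∀ t ∈ T, ∀ w ∈ W, t w ∈ W := by
      intro t ht w hw
      show (r * t) w = t w
      rw [← hcomm t ht]
      show t (r w) = t w
      rw [show r w = w from hw]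
    intro v
    have h1 : v + r v ∈ W := by
      show r (v + r v) = v + r v
      rw [map_add, hr2, add_comm]
    by_contra hne
    have h2 : v + r v ≠ 0 := fun h => hne (by rw [add_comm] at h; exact eq_neg_of_add_eq_zero_left h)
    have h3' : r e0 = e0 := e0_mem hW h1 h2
    rw [hs] at h3'
    have h4 := congrFun h3' 0
    simp [e0] at h4
    revert h4
    decide

end Cfsg.Agent.H300.Co
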