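import Cfsg.Agent.H300.Co.Base

/-!
# Types of elements of `T` and centralizers of transvection-type elements (TEAM S5227, task 3753)
-/

set_option autoImplicit false
set_option linter.style.longLine false

namespace Cfsg.Agent.H300.Co

open Cfsg.Agent.H776.Co.Lin Subgroup

/-! ### `type` and `not_conj` -/

theorem type_aux (a b c s t : ZMod 3) (e : V)
    (hs : tf a b c (tf a b c ![0, 0, 1, 0, 0, 0]) + tf a b c ![0, 0, 1, 0, 0, 0] + ![0, 0, 1, 0, 0, 0] = s • e)
    (ht : tf a b c (tf a b c ![0, 0, 0, 0, 0, 1]) + tf a b c ![0, 0, 0, 0, 0, 1] + ![0, 0, 0, 0, 0, 1] = t • e) :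
    a = 0 ∨ b = 0 := by
  have hs0 := congrFun hs 0
  have hs2 := congrFun hs 2
  have ht2 := congrFun ht 2
  simp [tf] at hs0 hs2 ht2
  have key : ∀ a b s t p q : ZMod 3, a ^ 2 + 2 * a * a + a ^ 2 + a ^ 2 = s * p → 1 + 1 + 1 = s * q →
      b ^ 2 + 2 * b * b + b ^ 2 + b ^ 2 = t * q → a = 0 ∨ b = 0 := by decide +kernel
  exact key a b s t _ _ hs0 hs2 ht2

theorem type (g x : L) (hx : x ∈ U1 ∨ x ∈ U2) (hg : g * x * g⁻¹ ∈ T) : g * x * g⁻¹ ∈ U1 ∨ g * x * g⁻¹ ∈ U2 := by
  -- `(x-1)^2` has rank `≤ 1`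
  obtain ⟨e, he⟩ : ∃ e : V, ∀ v, ∃ s : ZMod 3, x (x v) + x v + v = s • e := by
    rcases hx with ⟨b, c, rfl⟩ | ⟨a, c, rfl⟩
    · exact ⟨_, fun v => ⟨_, sq_U1 b c v⟩⟩
    · exact ⟨_, fun v => ⟨_, sq_U2 a c v⟩⟩
  obtain ⟨a, b, c, hy⟩ := hg
  have h1 : ∀ v, ∃ s : ZMod 3, tf a b c (tf a b c v) + tf a b c v + v = s • g e := by
    intro v
    obtain ⟨s, hs⟩ := he (g⁻¹ v)
    refine ⟨s, ?_⟩
    rw [← map_smul, ← hs, map_add, map_add]
    have h2 : ∀ w, tf a b c w = g (x (g⁻¹ w)) := fun w => by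
      rw [← tl_apply, ← hy]
      rfl
    have h3 : ∀ w, g⁻¹ (g w) = w := fun w => by
      show (g⁻¹ * g) w = w
      rw [inv_mul_cancel]
      rfl
    have h4 : g (g⁻¹ v) = v := by
      show (g * g⁻¹) v = v
      rw [mul_inv_cancel]
      rfl
    rw [h2 (tf a b c v), h2 v, h3, h4]
  obtain ⟨s, hs⟩ := h1 ![0, 0, 1, 0, 0, 0]
  obtain ⟨t, ht⟩ := h1 ![0, 0, 0, 0, 0, 1]
  rw [hy]
  rcases type_aux a b c s t _ hs ht with rfl | rfl
  · exact Or.inl ⟨_, _, rfl⟩
  · exact Or.inr ⟨_, _, rfl⟩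

theorem not_conj_aux (a c a' c' : ZMod 3) (hdet : a * c' - a' * c ≠ 0) (v : V) (h1 : tf a 0 c v = v) (h2 : tf a' 0 c' v = v) :
    ∀ i, i ≠ 0 → v i = 0 := by
  have e1 : tf a 0 c v - v = 0 := by rw [h1, sub_self]
  have e2 : tf a' 0 c' v - v = 0 := by rw [h2, sub_self]
  rw [tf_sub] at e1 e2
  have f0 := congrFun e1 0
  have f1 := congrFun e1 1
  have f3 := congrFun e1 3
  have g0 := congrFun e2 0
  have g1 := congrFun e2 1
  have g3 := congrFun e2 3
  simp at f0 f1 f3 g0 g1 g3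
  have det : ∀ x y : ZMod 3, a * x + c * y = 0 → a' * x + c' * y = 0 → x = 0 ∧ y = 0 := by
    intro x y hx hy
    constructor
    · refine (mul_eq_zero.1 (?_ : (a * c' - a' * c) * x = 0)).resolve_left hdet
      linear_combination c' * hx - c * hy
    · refine (mul_eq_zero.1 (?_ : (a * c' - a' * c) * y = 0)).resolve_left hdet
      linear_combination -a' * hx + a * hy
  obtain ⟨k4, k5⟩ := det _ _ f3 g3
  obtain ⟨k2, -⟩ := det _ _ f1 g1
  obtain ⟨k1, k3⟩ := det (2 * v 1) (2 * v 3) (by rw [k2, k4, k5] at f0; linear_combination f0)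
    (by rw [k2, k4, k5] at g0; linear_combination g0)
  have h2 : (2 : ZMod 3) ≠ 0 := by decide
  have k1' := (mul_eq_zero.1 k1).resolve_left h2
  have k3' := (mul_eq_zero.1 k3).resolve_left h2
  intro i hi
  fin_cases i
  · exact absurd rfl hi
  all_goals assumption

theorem not_conj (g : L) : ∃ x ∈ U1, g * x * g⁻¹ ∉ U2 := by
  by_contra hcon
  push Not at hcon
  obtain ⟨a, c, h1⟩ := hcon (tl 0 1 0) ⟨_, _, rfl⟩
  obtain ⟨a', c', h2⟩ := hcon (tl 0 0 1) ⟨_, _, rfl⟩
  have e1 : g * tl 0 1 0 = tl a 0 c * g := by rw [← h1]; group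
  have e2 : g * tl 0 0 1 = tl a' 0 c' * g := by rw [← h2]; group
  -- the relation between powers
  have hrel : ∀ i j : ℕ, g * ((tl 0 1 0) ^ i * (tl 0 0 1) ^ j) * g⁻¹ = (tl a 0 c) ^ i * (tl a' 0 c') ^ j := by
    intro i j
    rw [← h1, ← h2, conj_pow, conj_pow]
    group
  have hdet : a * c' - a' * c ≠ 0 := by
    intro h0
    have key : ∀ a c a' c' : ZMod 3, a * c' - a' * c = 0 → ∃ i j : Fin 3, (i ≠ 0 ∨ j ≠ 0) ∧ (i : ℕ) * a + (j : ℕ) * a' = 0 ∧
      (i : ℕ) * c + (j : ℕ) * c' = 0 := by decide +kernel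
    obtain ⟨i, j, hij, hi, hj⟩ := key a c a' c' h0
    have hpow1 : ∀ (a c : ZMod 3) (n : ℕ), (tl a 0 c) ^ n = tl (n * a) 0 (n * c) := by
      intro a c n
      induction n with
      | zero => simp [tl_one]
      | succ n ih =>
        rw [pow_succ, ih, tl_mul]
        congr 1 <;> push_cast <;> ring
    have hpow2 : ∀ (b c : ZMod 3) (n : ℕ), (tl 0 b c) ^ n = tl 0 (n * b) (n * c) := by
      intro a c n
      induction n with
      | zero => simp [tl_one]
      | succ n ih =>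
        rw [pow_succ, ih, tl_mul]
        congr 1 <;> push_cast <;> ring
    have h3 := hrel i j
    rw [hpow2 1 0, hpow2 0 1, hpow1 a c, hpow1 a' c', tl_mul, tl_mul, hi] at h3
    have h4 : tl 0 (0 + 0) ((i : ℕ) * c + (j : ℕ) * c' + (i : ℕ) * a * 0) = 1 := by
      rw [hj, ← tl_one]
      congr 1 <;> ring
    rw [h4, mul_inv_eq_one, mul_eq_left] at h3
    rw [← tl_one] at h3
    obtain ⟨-, h5, h6⟩ := tl_inj h3
    simp at h5 h6
    rcases hij with hij | hij
    · apply hij
      revert h5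
      generalize i = i'
      revert i'
      decide
    · apply hij
      revert h6
      generalize j = i'
      revert i'
      decide
  have hfix : ∀ v : V, tf 0 1 0 v = v → tf 0 0 1 v = v → ∀ i, i ≠ 0 → g v i = 0 := by
    intro v hv1 hv2
    refine not_conj_aux a c a' c' hdet _ ?_ ?_
    · rw [← tl_apply]
      show (tl a 0 c * g) v = g v
      rw [← e1]
      show g (tf 0 1 0 v) = g v
      rw [hv1]
    · rw [← tl_apply]
      show (tl a' 0 c' * g) v = g v
      rw [← e2]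
      show g (tf 0 0 1 v) = g v
      rw [hv2]
  have q0 := hfix ![1, 0, 0, 0, 0, 0] (by funext i; fin_cases i <;> simp [tf]) (by funext i; fin_cases i <;> simp [tf])
  have q1 := hfix ![0, 1, 0, 0, 0, 0] (by funext i; fin_cases i <;> simp [tf]) (by funext i; fin_cases i <;> simp [tf])
  -- two independent vectors in a line
  have h7 : g ((g ![0, 1, 0, 0, 0, 0] 0) • ![1, 0, 0, 0, 0, 0] - (g ![1, 0, 0, 0, 0, 0] 0) • ![0, 1, 0, 0, 0, 0]) = 0 := by
    rw [map_sub, map_smul, map_smul]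
    funext i
    by_cases hi : i = 0
    · subst hi
      simp [mul_comm]
    · simp [q0 i hi, q1 i hi]
  have h8 := (map_eq_zero_iff g g.injective).1 h7
  have h9 := congrFun h8 0
  have h10 := congrFun h8 1
  simp at h9 h10
  have h11 : g ![1, 0, 0, 0, 0, 0] = 0 := by
    funext i
    by_cases hi : i = 0
    · subst hi
      simpa using h10
    · simpa using q0 i hi
  have h12 := (map_eq_zero_iff g g.injective).1 h11
  have h13 := congrFun h12 0
  simp at h13

/-! ### stability groups of flags -/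

/-- the `3`-elements of the centralizer of `x` lie in a `3`-subgroup -/
def Good (x : L) : Prop :=
  ∃ S : Subgroup L, IsPGroup 3 S ∧ ∀ g : L, g * x = x * g → (∃ k : ℕ, g ^ (3 ^ k) = 1) → g ∈ S

theorem Good.conj {x : L} (h : L) (hx : Good x) : Good (h * x * h⁻¹) := by
  obtain ⟨S, hS, hg⟩ := hx
  refine ⟨S.map (MulAut.conj h).toMonoidHom, hS.map _, ?_⟩
  intro g hgx ⟨k, hk⟩
  refine ⟨h⁻¹ * g * h, hg _ ?_ ⟨k, ?_⟩, ?_⟩
  · calc h⁻¹ * g * h * x = h⁻¹ * (g * (h * x * h⁻¹)) * h := by group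
      _ = h⁻¹ * (h * x * h⁻¹ * g) * h := by rw [hgx]
      _ = x * (h⁻¹ * g * h) := by group
  · have : (h⁻¹ * g * h) ^ (3 ^ k) = h⁻¹ * g ^ (3 ^ k) * h := by
      have := conj_pow (i := 3 ^ k) (a := h⁻¹) (b := g)
      rwa [inv_inv] at this
    rw [this, hk]
    group
  · show h * (h⁻¹ * g * h) * h⁻¹ = g
    group

theorem Good.inv {x : L} (hx : Good x) : Good x⁻¹ := by
  obtain ⟨S, hS, hg⟩ := hx
  refine ⟨S, hS, fun g hgx hk => hg g ?_ hk⟩
  have h1 : Commute g x⁻¹ := hgx
  exact (Commute.inv_right_iff.1 h1).eq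

theorem Good.tri {x : L} (hx : Good x) (P Q : Subgroup L) (hP : IsPGroup 3 P) (hQ : IsPGroup 3 Q)
    (hPx : ∀ g ∈ P, g * x = x * g) (hQx : ∀ g ∈ Q, g * x = x * g) : IsPGroup 3 ↥(P ⊔ Q) := by
  obtain ⟨S, hS, hg⟩ := hx
  refine hS.to_le (sup_le ?_ ?_)
  · intro g hgP
    obtain ⟨k, hk⟩ := hP ⟨g, hgP⟩
    exact hg g (hPx g hgP) ⟨k, by simpa using congrArg Subtype.val hk⟩
  · intro g hgQ
    obtain ⟨k, hk⟩ := hQ ⟨g, hgQ⟩
    exact hg g (hQx g hgQ) ⟨k, by simpa using congrArg Subtype.val hk⟩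

/-- the coordinate flag of an ordering -/
def Fl (σ : Fin 6 → Fin 6) (i : ℕ) : Submodule (ZMod 3) V where
  carrier := {v | ∀ j : Fin 6, i ≤ j → v (σ j) = 0}
  add_mem' := by
    intro u v hu hv j hj
    rw [Pi.add_apply, hu j hj, hv j hj, add_zero]
  zero_mem' := fun j _ => rfl
  smul_mem' := by
    intro s v hv j hj
    rw [Pi.smul_apply, hv j hj, smul_zero]

theorem mem_Fl {σ : Fin 6 → Fin 6} {i : ℕ} {v : V} : v ∈ Fl σ i ↔ ∀ j : Fin 6, i ≤ j → v (σ j) = 0 := Iff.rfl

theorem Fl_mono {σ : Fin 6 → Fin 6} {i j : ℕ} (h : i ≤ j) : Fl σ i ≤ Fl σ j :=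
  fun _ hv k hk => hv k (h.trans hk)

/-- the stability submonoid -/
theorem flag_good (σ : Fin 6 → Fin 6) (hσ : Function.Bijective σ) : ∃ S : Subgroup L, IsPGroup 3 S ∧
    ∀ g : L, (∀ i : ℕ, ∀ v ∈ Fl σ i, g v ∈ Fl σ i) → (∃ k : ℕ, g ^ (3 ^ k) = 1) → g ∈ S := by
  have h3 : (3 : ZMod 3) = 0 := by decide
  let M : Submonoid L :=
    { carrier := {g | ∀ i : ℕ, ∀ v ∈ Fl σ (i + 1), g v - v ∈ Fl σ i}
      mul_mem' := by
        intro g h hg hh i v hv
        have h1 : g (h v - v) - (h v - v) ∈ Fl σ i := hg i _ (Fl_mono (Nat.le_succ i) (hh i v hv))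
        have h2 := hh i v hv
        have h3 := hg i v hv
        have h4 : (g * h) v - v = (g (h v - v) - (h v - v)) + (h v - v) + (g v - v) := by
          show g (h v) - v = _
          rw [map_sub]
          abel
        rw [h4]
        exact (Fl σ i).add_mem ((Fl σ i).add_mem h1 h2) h3
      one_mem' := by
        intro i v hv
        show v - v ∈ _
        rw [sub_self]
        exact (Fl σ i).zero_mem }
  have hM : ∀ g : L, g ∈ M ↔ ∀ i : ℕ, ∀ v ∈ Fl σ (i + 1), g v - v ∈ Fl σ i := fun g => Iff.rfl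
  have h6 : ∀ v : V, v ∈ Fl σ 6 := fun v j hj => absurd j.2 (by omega)
  have h0 : ∀ v : V, v ∈ Fl σ 0 → v = 0 := by
    intro v hv
    funext m
    obtain ⟨j, rfl⟩ := hσ.2 m
    exact hv j (Nat.zero_le _)
  -- `M` consists of `3`-elements
  have hpow : ∀ g ∈ M, ∀ i : ℕ, ∀ v ∈ Fl σ i, (g ^ (3 ^ i)) v = v := by
    intro g hg i
    induction i with
    | zero =>
      intro v hv
      rw [h0 v hv, map_zero]
    | succ i ih =>
      intro v hv
      have h1 : g ^ (3 ^ i) ∈ M := pow_mem hg _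
      have h2 := h1 i v hv
      have h4 := ih _ h2
      set h := g ^ (3 ^ i) with hh
      rw [pow_succ, pow_mul, ← hh, pow_succ, pow_two]
      show h (h (h v)) = v
      have h5 : h v = v + (h v - v) := by abel
      set w := h v - v with hw
      rw [h5, map_add, h4, h5, add_assoc, map_add, map_add, h4, h5]
      have h6 : v + w + (w + w) = v + (3 : ZMod 3) • w := by
        rw [show (3 : ZMod 3) = 1 + 1 + 1 by norm_num, add_smul, add_smul, one_smul]
        abel
      rw [h6, h3, zero_smul, add_zero]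
  have hpow6 : ∀ g ∈ M, g ^ (3 ^ 6) = 1 := fun g hg => LinearEquiv.ext fun v => hpow g hg 6 v (h6 v)
  let S : Subgroup L :=
    { M with
      inv_mem' := by
        intro g hg
        have h1 : g⁻¹ = g ^ (3 ^ 6 - 1) := by
          rw [inv_eq_iff_mul_eq_one, ← pow_succ']
          exact hpow6 g hg
        show g⁻¹ ∈ M
        rw [h1]
        exact pow_mem hg _ }
  have hS : ∀ g : L, g ∈ S ↔ g ∈ M := fun g => Iff.rfl
  refine ⟨S, ?_, ?_⟩
  · rintro ⟨g, hg⟩
    refine ⟨6, Subtype.ext ?_⟩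
    simpa using hpow6 g hg
  · intro g hg ⟨k, hk⟩
    rw [hS, hM]
    intro i v hv
    by_cases hi : i < 6
    · -- the basis vector
      let f : V := Pi.single (σ ⟨i, hi⟩) 1
      have hf : ∀ j : Fin 6, i < j → f (σ j) = 0 := fun j hj => by
        refine Pi.single_eq_of_ne ?_ _
        intro h
        have := congrArg Fin.val (hσ.1 h)
        simp at this
        omega
      have hf1 : f (σ ⟨i, hi⟩) = 1 := Pi.single_eq_same _ _
      have hfm : f ∈ Fl σ (i + 1) := fun j hj => hf j hj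
      have hdec : ∀ v ∈ Fl σ (i + 1), v - (v (σ ⟨i, hi⟩)) • f ∈ Fl σ i := by
        intro v hv j hj
        rcases hj.lt_or_eq with hj | hj
        · rw [Pi.sub_apply, Pi.smul_apply, hf j hj, hv j hj, smul_zero, sub_zero]
        · have : j = ⟨i, hi⟩ := Fin.ext hj.symm
          rw [this, Pi.sub_apply, Pi.smul_apply, hf1, smul_eq_mul, mul_one, sub_self]
      -- `g f = s f + w`
      obtain ⟨s, hs⟩ : ∃ s : ZMod 3, g f - s • f ∈ Fl σ i := ⟨_, hdec _ (hg _ f hfm)⟩
      have hspow : ∀ n : ℕ, (g ^ n) f - s ^ n • f ∈ Fl σ i := by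
        intro n
        induction n with
        | zero =>
          show f - _ ∈ _
          rw [pow_zero, one_smul, sub_self]
          exact (Fl σ i).zero_mem
        | succ n ih =>
          have h1 : (g ^ (n + 1)) f - s ^ (n + 1) • f = g ((g ^ n) f - s ^ n • f) + s ^ n • (g f - s • f) := by
            rw [pow_succ' g, map_sub, map_smul, smul_sub, smul_smul, ← pow_succ]
            show g ((g ^ n) f) - _ = _
            abel
          rw [h1]
          exact (Fl σ i).add_mem (hg _ _ ih) ((Fl σ i).smul_mem _ hs)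
      have hs3 : s ^ (3 ^ k) = s := by
        have := ZMod.pow_card_pow (p := 3) (n := k) s
        exact this
      have h1 := hspow (3 ^ k)
      rw [hk, hs3] at h1
      have h2 : g f - f ∈ Fl σ i := by
        have : g f - f = (g f - s • f) - ((1 : L) f - s • f) := by
          show _ = (g f - s • f) - (f - s • f)
          abel
        rw [this]
        exact (Fl σ i).sub_mem hs h1
      have h4 := hdec v hv
      set c := v (σ ⟨i, hi⟩) with hc
      have h5 : g v - v = g (v - c • f) - (v - c • f) + c • (g f - f) := by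
        rw [map_sub, map_smul, smul_sub]
        abel
      rw [h5]
      exact (Fl σ i).add_mem ((Fl σ i).sub_mem (hg _ _ h4) h4) ((Fl σ i).smul_mem _ h2)
    · intro j hj
      exact absurd j.2 (by omega)

/-- the intrinsic description of the flag -/
theorem good_of_flag (x : L) (σ : Fin 6 → Fin 6) (hσ : Function.Bijective σ)
    (h1 : ∀ v, v ∈ Fl σ 1 ↔ ∃ w, v = x (x w - w) - (x w - w))
    (h2 : ∀ v, v ∈ Fl σ 2 ↔ x v - v = 0 ∧ ∃ w, v = x w - w)
    (h3 : ∀ v, v ∈ Fl σ 3 ↔ x v - v = 0)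
    (h4 : ∀ v, v ∈ Fl σ 4 ↔ ∃ w, x (v - (x w - w)) - (v - (x w - w)) = 0)
    (h5 : ∀ v, v ∈ Fl σ 5 ↔ x (x v - v) - (x v - v) = 0) : Good x := by
  obtain ⟨S, hS, hg⟩ := flag_good σ hσ
  refine ⟨S, hS, fun g hgx hk => hg g ?_ hk⟩
  have hx : ∀ v, g (x v) = x (g v) := fun v => LinearEquiv.congr_fun hgx v
  intro i v hv
  by_cases h6 : 6 ≤ i
  · intro j hj
    exact absurd j.2 (by omega)
  have hi : i = 0 ∨ i = 1 ∨ i = 2 ∨ i = 3 ∨ i = 4 ∨ i = 5 := by omega
  rcases hi with rfl | rfl | rfl | rfl | rfl | rfl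
  · have : v = 0 := by
      funext m
      obtain ⟨j, rfl⟩ := hσ.2 m
      exact hv j (Nat.zero_le _)
    rw [this, map_zero]
    exact (Fl σ 0).zero_mem
  · obtain ⟨w, hw⟩ := (h1 v).1 hv
    refine (h1 _).2 ⟨g w, ?_⟩
    simp only [hw, map_sub, hx]
  · obtain ⟨h7, w, hw⟩ := (h2 v).1 hv
    refine (h2 _).2 ⟨?_, g w, ?_⟩
    · rw [← hx, ← map_sub, h7, map_zero]
    · simp only [hw, map_sub, hx]
  · have h7 := (h3 v).1 hv
    refine (h3 _).2 ?_
    rw [← hx, ← map_sub, h7, map_zero]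
  · obtain ⟨w, hw⟩ := (h4 v).1 hv
    refine (h4 _).2 ⟨g w, ?_⟩
    rw [← hx, ← map_sub, ← map_sub, ← hx, ← map_sub, hw, map_zero]
  · have h7 := (h5 v).1 hv
    refine (h5 _).2 ?_
    rw [← hx, ← map_sub, ← hx, ← map_sub, h7, map_zero]

/-- six equations -/
theorem mem_Fl_iff {σ : Fin 6 → Fin 6} {i : ℕ} {v : V} : v ∈ Fl σ i ↔ (i ≤ 0 → v (σ 0) = 0) ∧ (i ≤ 1 → v (σ 1) = 0) ∧
    (i ≤ 2 → v (σ 2) = 0) ∧ (i ≤ 3 → v (σ 3) = 0) ∧ (i ≤ 4 → v (σ 4) = 0) ∧ (i ≤ 5 → v (σ 5) = 0) := by
  rw [mem_Fl, Fin.forall_fin_succ, Fin.forall_fin_succ, Fin.forall_fin_succ, Fin.forall_fin_succ, Fin.forall_fin_succ,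
    Fin.forall_fin_one]
  rfl

theorem vec_ext {u v : V} (h0 : u 0 = v 0) (h1 : u 1 = v 1) (h2 : u 2 = v 2) (h3 : u 3 = v 3) (h4 : u 4 = v 4) (h5 : u 5 = v 5) :
    u = v := by
  funext i
  fin_cases i <;> assumption

theorem good_z : Good (tl 0 0 1) := by
  have two : (2 : ZMod 3) * 2 = 1 := by decide
  have two' : (2 : ZMod 3) ≠ 0 := by decide
  refine good_of_flag _ ![0, 1, 2, 3, 4, 5] (by decide) ?_ ?_ ?_ ?_ ?_
  · intro v
    rw [mem_Fl_iff]
    constructor
    · intro h
      simp at h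
      refine ⟨![0, 0, 0, 0, 0, 2 * v 0], ?_⟩
      rw [tl_apply, tl_apply, tf_sub, tf_sub]
      refine vec_ext ?_ ?_ ?_ ?_ ?_ ?_ <;> simp [h, ← mul_assoc, two]
    · rintro ⟨w, rfl⟩
      rw [tl_apply, tl_apply, tf_sub, tf_sub]
      simp
  · intro v
    rw [mem_Fl_iff]
    constructor
    · intro h
      simp at h
      refine ⟨?_, ![0, 0, 0, 2 * v 0, v 1, 0], ?_⟩
      · rw [tl_apply, tf_sub]
        refine vec_ext ?_ ?_ ?_ ?_ ?_ ?_ <;> simp [h]
      · rw [tl_apply, tf_sub]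
        refine vec_ext ?_ ?_ ?_ ?_ ?_ ?_ <;> simp [h, ← mul_assoc, two]
    · rintro ⟨h, w, rfl⟩
      rw [tl_apply, tl_apply, tf_sub, tf_sub] at h
      rw [tl_apply, tf_sub]
      have h0 := congrFun h 0
      have h1 := congrFun h 1
      have h2 := congrFun h 2
      have h3 := congrFun h 3
      have h4 := congrFun h 4
      simp [two'] at h0 h1 h2 h3 h4
      simp [*]
  · intro v
    rw [mem_Fl_iff]
    constructor
    · intro h
      simp at h
      rw [tl_apply, tf_sub]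
      refine vec_ext ?_ ?_ ?_ ?_ ?_ ?_ <;> simp [h]
    · intro h
      rw [tl_apply, tf_sub] at h
      have h0 := congrFun h 0
      have h1 := congrFun h 1
      have h2 := congrFun h 2
      have h3 := congrFun h 3
      have h4 := congrFun h 4
      simp [two'] at h0 h1 h2 h3 h4
      simp [*] at h0 h1 h2 h3 h4 ⊢
      assumption
  · intro v
    rw [mem_Fl_iff]
    constructor
    · intro h
      simp at h
      refine ⟨![0, 0, 0, 0, 0, v 3], ?_⟩
      simp only [tl_apply, tf_sub]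
      refine vec_ext ?_ ?_ ?_ ?_ ?_ ?_ <;> simp [h]
    · rintro ⟨w, h⟩
      simp only [tl_apply, tf_sub] at h
      have h0 := congrFun h 0
      have h1 := congrFun h 1
      have h2 := congrFun h 2
      have h3 := congrFun h 3
      have h4 := congrFun h 4
      simp [two'] at h0 h1 h2 h3 h4
      simp [*] at h0 h1 h2 h3 h4 ⊢
  · intro v
    rw [mem_Fl_iff]
    constructor
    · intro h
      simp at h
      simp only [tl_apply, tf_sub]
      refine vec_ext ?_ ?_ ?_ ?_ ?_ ?_ <;> simp [h]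
    · intro h
      simp only [tl_apply, tf_sub] at h
      have h0 := congrFun h 0
      have h2 := congrFun h 2
      simp [two'] at h0 h2
      simp [*]

theorem good_b : Good (tl 0 1 0) := by
  have two : (2 : ZMod 3) * 2 = 1 := by decide
  have two' : (2 : ZMod 3) ≠ 0 := by decide
  refine good_of_flag _ ![2, 1, 0, 4, 3, 5] (by decide) ?_ ?_ ?_ ?_ ?_
  · intro v
    rw [mem_Fl_iff]
    constructor
    · intro h
      simp at h
      refine ⟨![0, 0, 0, 0, 0, 2 * v 2], ?_⟩
      rw [tl_apply, tl_apply, tf_sub, tf_sub]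
      refine vec_ext ?_ ?_ ?_ ?_ ?_ ?_ <;> simp [h, ← mul_assoc, two]
    · rintro ⟨w, rfl⟩
      rw [tl_apply, tl_apply, tf_sub, tf_sub]
      simp
  · intro v
    rw [mem_Fl_iff]
    constructor
    · intro h
      simp at h
      refine ⟨?_, ![0, 0, 0, v 1, 2 * v 2, 0], ?_⟩
      · rw [tl_apply, tf_sub]
        refine vec_ext ?_ ?_ ?_ ?_ ?_ ?_ <;> simp [h]
      · rw [tl_apply, tf_sub]
        refine vec_ext ?_ ?_ ?_ ?_ ?_ ?_ <;> simp [h, ← mul_assoc, two]
    · rintro ⟨h, w, rfl⟩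
      rw [tl_apply, tl_apply, tf_sub, tf_sub] at h
      rw [tl_apply, tf_sub]
      have h0 := congrFun h 0
      have h1 := congrFun h 1
      have h2 := congrFun h 2
      have h3 := congrFun h 3
      have h4 := congrFun h 4
      simp [two'] at h0 h1 h2 h3 h4
      simp [*]
  · intro v
    rw [mem_Fl_iff]
    constructor
    · intro h
      simp at h
      rw [tl_apply, tf_sub]
      refine vec_ext ?_ ?_ ?_ ?_ ?_ ?_ <;> simp [h]
    · intro h
      rw [tl_apply, tf_sub] at h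
      have h0 := congrFun h 0
      have h1 := congrFun h 1
      have h2 := congrFun h 2
      have h3 := congrFun h 3
      have h4 := congrFun h 4
      simp [two'] at h0 h1 h2 h3 h4
      simp [*] at h0 h1 h2 h3 h4 ⊢
      assumption
  · intro v
    rw [mem_Fl_iff]
    constructor
    · intro h
      simp at h
      refine ⟨![0, 0, 0, 0, 0, v 4], ?_⟩
      simp only [tl_apply, tf_sub]
      refine vec_ext ?_ ?_ ?_ ?_ ?_ ?_ <;> simp [h]
    · rintro ⟨w, h⟩
      simp only [tl_apply, tf_sub] at h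
      have h0 := congrFun h 0
      have h1 := congrFun h 1
      have h2 := congrFun h 2
      have h3 := congrFun h 3
      have h4 := congrFun h 4
      simp [two'] at h0 h1 h2 h3 h4
      simp [*] at h0 h1 h2 h3 h4 ⊢
  · intro v
    rw [mem_Fl_iff]
    constructor
    · intro h
      simp at h
      simp only [tl_apply, tf_sub]
      refine vec_ext ?_ ?_ ?_ ?_ ?_ ?_ <;> simp [h]
    · intro h
      simp only [tl_apply, tf_sub] at h
      have h0 := congrFun h 0
      have h2 := congrFun h 2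
      simp [two'] at h0 h2
      simp [*]

theorem good_a : Good (tl 1 0 0) := by
  have two : (2 : ZMod 3) * 2 = 1 := by decide
  have two' : (2 : ZMod 3) ≠ 0 := by decide
  refine good_of_flag _ ![0, 3, 5, 1, 4, 2] (by decide) ?_ ?_ ?_ ?_ ?_
  · intro v
    rw [mem_Fl_iff]
    constructor
    · intro h
      simp at h
      refine ⟨![0, 0, 2 * v 0, 0, 0, 0], ?_⟩
      rw [tl_apply, tl_apply, tf_sub, tf_sub]
      refine vec_ext ?_ ?_ ?_ ?_ ?_ ?_ <;> simp [h, ← mul_assoc, two]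
    · rintro ⟨w, rfl⟩
      rw [tl_apply, tl_apply, tf_sub, tf_sub]
      simp
  · intro v
    rw [mem_Fl_iff]
    constructor
    · intro h
      simp at h
      refine ⟨?_, ![0, 2 * v 0, 0, 0, v 3, 0], ?_⟩
      · rw [tl_apply, tf_sub]
        refine vec_ext ?_ ?_ ?_ ?_ ?_ ?_ <;> simp [h]
      · rw [tl_apply, tf_sub]
        refine vec_ext ?_ ?_ ?_ ?_ ?_ ?_ <;> simp [h, ← mul_assoc, two]
    · rintro ⟨h, w, rfl⟩
      rw [tl_apply, tl_apply, tf_sub, tf_sub] at h
      rw [tl_apply, tf_sub]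
      have h0 := congrFun h 0
      have h1 := congrFun h 1
      have h2 := congrFun h 2
      have h3 := congrFun h 3
      have h4 := congrFun h 4
      simp [two'] at h0 h1 h2 h3 h4
      simp [*]
  · intro v
    rw [mem_Fl_iff]
    constructor
    · intro h
      simp at h
      rw [tl_apply, tf_sub]
      refine vec_ext ?_ ?_ ?_ ?_ ?_ ?_ <;> simp [h]
    · intro h
      rw [tl_apply, tf_sub] at h
      have h0 := congrFun h 0
      have h1 := congrFun h 1
      have h2 := congrFun h 2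
      have h3 := congrFun h 3
      have h4 := congrFun h 4
      simp [two'] at h0 h1 h2 h3 h4
      simp [*] at h0 h1 h2 h3 h4 ⊢
      assumption
  · intro v
    rw [mem_Fl_iff]
    constructor
    · intro h
      simp at h
      refine ⟨![0, 0, v 1, 0, 0, 0], ?_⟩
      simp only [tl_apply, tf_sub]
      refine vec_ext ?_ ?_ ?_ ?_ ?_ ?_ <;> simp [h]
    · rintro ⟨w, h⟩
      simp only [tl_apply, tf_sub] at h
      have h0 := congrFun h 0
      have h1 := congrFun h 1
      have h2 := congrFun h 2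
      have h3 := congrFun h 3
      have h4 := congrFun h 4
      simp [two'] at h0 h1 h2 h3 h4
      simp [*] at h0 h1 h2 h3 h4 ⊢
  · intro v
    rw [mem_Fl_iff]
    constructor
    · intro h
      simp at h
      simp only [tl_apply, tf_sub]
      refine vec_ext ?_ ?_ ?_ ?_ ?_ ?_ <;> simp [h]
    · intro h
      simp only [tl_apply, tf_sub] at h
      have h0 := congrFun h 0
      have h2 := congrFun h 2
      simp [two'] at h0 h2
      simp [*]

theorem zmod3_cases (b : ZMod 3) (hb : b ≠ 0) : b = 1 ∨ b = -1 := by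
  revert b
  decide

theorem good_U1 (b c : ZMod 3) (h : b ≠ 0 ∨ c ≠ 0) : Good (tl 0 b c) := by
  by_cases hb : b = 0
  · subst hb
    have hc : c ≠ 0 := by tauto
    rcases zmod3_cases c hc with rfl | rfl
    · exact good_z
    · have h1 := good_z.inv
      rw [tl_inv] at h1
      have h2 : tl (-0) (-0) (-1 + 0 * 0) = tl 0 0 (-1) := by congr 1 <;> ring
      rwa [h2] at h1
  · have hbb : b * b = 1 := by
      rcases zmod3_cases b hb with rfl | rfl <;> decide
    have h1 : Good (tl 0 b 0) := by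
      rcases zmod3_cases b hb with rfl | rfl
      · exact good_b
      · have h1 := good_b.inv
        rw [tl_inv] at h1
        have h2 : tl (-0) (-1) (-0 + 0 * 1) = tl 0 (-1) 0 := by congr 1 <;> ring
        rwa [h2] at h1
    have h2 := h1.conj (tl (c * b) 0 0)
    rw [tl_inv, tl_mul, tl_mul] at h2
    have h3 : tl (c * b + 0 + -(c * b)) (0 + b + -0) (0 + 0 + c * b * b + (-0 + c * b * 0) + (c * b + 0) * -0) = tl 0 b c := by
      congr 1
      · ring
      · ring
      · linear_combination c * hbb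
    rwa [h3] at h2

theorem good_U2 (a c : ZMod 3) (h : a ≠ 0 ∨ c ≠ 0) : Good (tl a 0 c) := by
  by_cases ha : a = 0
  · subst ha
    exact good_U1 0 c (Or.inr (by tauto))
  · have haa : a * a = 1 := by
      rcases zmod3_cases a ha with rfl | rfl <;> decide
    have h1 : Good (tl a 0 0) := by
      rcases zmod3_cases a ha with rfl | rfl
      · exact good_a
      · have h1 := good_a.inv
        rw [tl_inv] at h1
        have h2 : tl (-1) (-0) (-0 + 1 * 0) = tl (-1) 0 0 := by congr 1 <;> ring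
        rwa [h2] at h1
    have h2 := h1.conj (tl 0 (-(c * a)) 0)
    rw [tl_inv, tl_mul, tl_mul] at h2
    have h3 : tl (0 + a + -0) (-(c * a) + 0 + -(-(c * a))) (0 + 0 + 0 * 0 + (-0 + 0 * -(c * a)) + (0 + a) * -(-(c * a))) = tl a 0 c := by
      congr 1
      · ring
      · ring
      · linear_combination c * haa
    rwa [h3] at h2

/-- **task 3753**: the `3`-elements of the centralizer of a transvection-type element form a `3`-group. -/
theorem tri (x : L) (hx : x ∈ U1 ∨ x ∈ U2) (h1 : x ≠ 1) (P Q : Subgroup L) (hP : IsPGroup 3 P) (hQ : IsPGroup 3 Q)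
    (hPx : ∀ g ∈ P, g * x = x * g) (hQx : ∀ g ∈ Q, g * x = x * g) : IsPGroup 3 ↥(P ⊔ Q) := by
  have hgood : Good x := by
    rcases hx with ⟨b, c, rfl⟩ | ⟨a, c, rfl⟩
    · refine good_U1 b c ?_
      by_contra hcon
      push Not at hcon
      rw [hcon.1, hcon.2] at h1
      exact h1 tl_one
    · refine good_U2 a c ?_
      by_contra hcon
      push Not at hcon
      rw [hcon.1, hcon.2] at h1
      exact h1 tl_one
  exact hgood.tri P Q hP hQ hPx hQx

end Cfsg.Agent.H300.Co
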